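import Cfsg.Agent.H808.GoodPrime
import Cfsg.Agent.H939.KLat

/-!
# Complemented subgroup lattices of simple groups from a good prime or from a large simple subgroup (helper808, S5900)

* `NoAct s n` : `s ∤ r ^ j - 1` for all prime powers `1 < r ^ j ∣ n`;
* `cl_of_good` : `p` divides `|G|` exactly once, `NoAct p |G|`, and the centers of the proper quasisimple subgroups of
  order divisible by `p` have order 1 or a prime;
* `cl_of_cent` : the same with self-centralizing Sylow `p`-subgroups;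
* `cl_of_simple` : `X` a proper simple subgroup, `p` divides `|X|`, and `|G|` exactly once, `NoAct s (|G| / |X|)` for a
  prime divisor `s` of `|X|`, and no simple group of order properly between (`|X|` divides `|L|` divides `|G|`).
-/

set_option autoImplicit false
set_option linter.style.haveILetI false
set_option linter.unusedSectionVars false

namespace Cfsg.Agent.H808.GoodCL

open Subgroup Cfsg.Agent.H939.KLat Cfsg.Agent.H808.GoodPrime
open scoped commutatorElement

universe u

/-- no nontrivial action of a group of order `s` on a group of prime power order dividing `n` -/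
def NoAct (s n : ℕ) : Prop := ∀ r j : ℕ, r.Prime → 0 < j → r ^ j ∣ n → ¬ s ∣ r ^ j - 1

theorem NoAct.mono {s m n : ℕ} (h : NoAct s n) (hmn : m ∣ n) : NoAct s m :=
  fun r j hr hj hd => h r j hr hj (hd.trans hmn)

section general

variable {G : Type u} [Group G] [Finite G]

/-- the hypothesis of the structure theorem in a subgroup -/
theorem hyp_of_noAct {p : ℕ} (hp : p.Prime) (hN : NoAct p (Nat.card G)) (K : Subgroup G) :
    ∀ R : Subgroup K, R.Normal → ¬ p ∣ Nat.card R → ∀ x : K, orderOf x = p → ∀ y ∈ R, x * y = y * x := by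
  intro R hR hpR x hx y hy
  have h1 := centralizes hp (R := R) hx hpR (fun r j hr hj hd => hN r j hr hj
    (hd.trans ((Subgroup.card_subgroup_dvd_card R).trans (Subgroup.card_subgroup_dvd_card K))))
  exact (mem_centralizer_singleton_iff.1 (h1 hy)).symm

/-- a proper nontrivial subgroup of a simple group is not normal -/
theorem normalizer_ne_top [IsSimpleGroup G] {X : Subgroup G} (h0 : X ≠ ⊥) (h1 : X ≠ ⊤) :
    normalizer (X : Set G) ≠ ⊤ := by
  intro h
  have h2 : X.Normal := Subgroup.normalizer_eq_top_iff.mp h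
  rcases h2.eq_bot_or_eq_top with h3 | h3
  · exact h0 h3
  · exact h1 h3

/-- the image in `G` of a normal subgroup of the subgroup `K` is normalised by `K` -/
theorem le_normalizer_map {K : Subgroup G} {Y : Subgroup K} (hY : Y.Normal) :
    K ≤ normalizer ((Y.map K.subtype : Subgroup G) : Set G) := by
  intro k hk
  rw [mem_normalizer_iff]
  intro h
  constructor
  · rintro ⟨y, hy, rfl⟩
    exact ⟨⟨k, hk⟩ * y * ⟨k, hk⟩⁻¹, hY.conj_mem y hy _, rfl⟩
  · rintro ⟨y, hy, hyk⟩
    refine ⟨⟨k, hk⟩⁻¹ * y * ⟨k, hk⟩, ?_, ?_⟩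
    · have := hY.conj_mem y hy (⟨k, hk⟩⁻¹)
      rwa [inv_inv] at this
    · have h1 : (y : G) = k * h * k⁻¹ := hyk
      show k⁻¹ * (y : G) * k = h
      rw [h1]; group

/-- a quasisimple subgroup in the sense used here -/
structure Qs (p : ℕ) (Y : Subgroup G) : Prop where
  ne : Y ≠ ⊤
  perf : commutator Y = ⊤
  simple : IsSimpleGroup (Y ⧸ center Y)
  nab : ¬ IsMulCommutative (Y ⧸ center Y)
  dvd : p ∣ Nat.card Y
  ndvd : ¬ p ∣ Nat.card (center Y)

theorem Qs.gen {p : ℕ} (hp : p.Prime) {Y : Subgroup G} (h : Qs p Y) {D : Subgroup Y} (hD : D.Normal)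
    (hx : ∀ x : Y, orderOf x = p → x ∈ D) : D = ⊤ := by
  have hfp : Fact p.Prime := ⟨hp⟩
  have hs := h.simple
  obtain ⟨x, hxo⟩ := exists_prime_orderOf_dvd_card' p h.dvd
  have h1 : (D.map (QuotientGroup.mk' (center Y))).Normal := hD.map _ (QuotientGroup.mk'_surjective _)
  rcases hs.eq_bot_or_eq_top_of_normal _ h1 with h2 | h2
  · exfalso
    rw [Subgroup.map_eq_bot_iff, QuotientGroup.ker_mk'] at h2
    apply h.ndvd
    have h3 := h2 (hx x hxo)
    have h4 := orderOf_dvd_natCard (⟨x, h3⟩ : center Y)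
    rwa [Subgroup.orderOf_mk, hxo] at h4
  · -- `D Z(Y) = Y`, so `Y' ≤ D`
    have h3 : D ⊔ center Y = ⊤ := by
      have h6 := congrArg (Subgroup.comap (QuotientGroup.mk' (center Y))) h2
      rwa [Subgroup.comap_map_eq, QuotientGroup.ker_mk', Subgroup.comap_top] at h6
    have h4 : commutator Y ≤ D := by
      rw [commutator_def, Subgroup.commutator_le]
      intro a _ b _
      have ha : a ∈ D ⊔ center Y := by rw [h3]; trivial
      have hb : b ∈ D ⊔ center Y := by rw [h3]; trivial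
      obtain ⟨d, hd, z, hz, rfl⟩ := Subgroup.mem_sup_of_normal_right.mp ha
      obtain ⟨e, he, w, hw, rfl⟩ := Subgroup.mem_sup_of_normal_right.mp hb
      have hz' := mem_center_iff.1 hz
      have hw' := mem_center_iff.1 hw
      have h5 : ⁅d * z, e * w⁆ = ⁅d, e⁆ := by
        rw [commutatorElement_def, commutatorElement_def]
        calc d * z * (e * w) * (d * z)⁻¹ * (e * w)⁻¹ = d * (z * e) * w * z⁻¹ * d⁻¹ * w⁻¹ * e⁻¹ := by group
          _ = d * (e * z) * w * z⁻¹ * d⁻¹ * w⁻¹ * e⁻¹ := by rw [hz' e]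
          _ = d * e * (z * w) * z⁻¹ * d⁻¹ * w⁻¹ * e⁻¹ := by group
          _ = d * e * (w * z) * z⁻¹ * d⁻¹ * w⁻¹ * e⁻¹ := by rw [hz' w]
          _ = d * e * (w * d⁻¹) * w⁻¹ * e⁻¹ := by group
          _ = d * e * (d⁻¹ * w) * w⁻¹ * e⁻¹ := by rw [hw' d⁻¹]
          _ = d * e * d⁻¹ * e⁻¹ := by group
      rw [h5, commutatorElement_def]
      exact mul_mem (mul_mem (mul_mem hd he) (inv_mem hd)) (inv_mem he)
    rw [h.perf] at h4
    exact top_le_iff.1 h4

/-- the subgroup generated by the elements of order `p` of a subgroup `Y`, inside `G` -/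
theorem Qs.le_of {p : ℕ} (hp : p.Prime) {Y : Subgroup G} (h : Qs p Y) {L K : Subgroup G} (hYK : Y ≤ K)
    (hLn : K ≤ normalizer (L : Set G)) (hx : ∀ x ∈ Y, orderOf x = p → x ∈ L) : Y ≤ L := by
  have hD : (L.subgroupOf Y).Normal := by
    constructor
    intro n hn g
    rw [mem_subgroupOf] at hn ⊢
    exact (mem_normalizer_iff.1 (hLn (hYK g.2)) _).1 hn
  have h1 := h.gen hp hD (fun x hxo => by
    rw [mem_subgroupOf]
    exact hx x x.2 (by rw [Subgroup.orderOf_coe, hxo]))
  rwa [subgroupOf_eq_top] at h1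

/-- overgroups: either a normal subgroup of order `p`, or a normal `Qs` subgroup containing the elements of order `p` -/
theorem overgroup {p : ℕ} (hp : p.Prime) (h2 : ¬ p ^ 2 ∣ Nat.card G) {K : Subgroup G} (hK : K ≠ ⊤)
    (hpK : p ∣ Nat.card K)
    (hc : ∀ R : Subgroup K, R.Normal → ¬ p ∣ Nat.card R → ∀ x : K, orderOf x = p → ∀ y ∈ R, x * y = y * x) :
    (∃ X : Subgroup G, X ≤ K ∧ K ≤ normalizer (X : Set G) ∧ Nat.card X = p) ∨
    ∃ Y : Subgroup G, Qs p Y ∧ Y ≤ K ∧ K ≤ normalizer (Y : Set G) ∧ ∀ x ∈ K, orderOf x = p → x ∈ Y := by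
  rcases struct hp hpK (fun h => h2 (h.trans (Subgroup.card_subgroup_dvd_card K))) hc with
    ⟨X, hX, hXc⟩ | ⟨Y, hYn, h3, h4, h5, h6, h7, h8⟩
  · left
    refine ⟨X.map K.subtype, Subgroup.map_subtype_le X, le_normalizer_map hX, ?_⟩
    rw [← hXc]
    exact (Nat.card_congr (Subgroup.equivMapOfInjective X _ K.subtype_injective).toEquiv).symm
  · right
    let e : Y ≃* (Y.map K.subtype) := Subgroup.equivMapOfInjective Y _ K.subtype_injective
    let ec : center Y ≃* center (Y.map K.subtype) := Subgroup.centerCongr e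
    have hmap : (center Y).map e.toMonoidHom = center (Y.map K.subtype) := by
      ext z
      constructor
      · rintro ⟨y, hy, rfl⟩
        rw [mem_center_iff]
        intro w
        obtain ⟨w, rfl⟩ := e.surjective w
        show e w * e y = e y * e w
        rw [← map_mul, ← map_mul, mem_center_iff.1 hy w]
      · intro hz
        obtain ⟨y, rfl⟩ := e.surjective z
        refine ⟨y, ?_, rfl⟩
        rw [SetLike.mem_coe, mem_center_iff]
        intro w
        apply e.injective
        rw [map_mul, map_mul]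
        exact mem_center_iff.1 hz (e w)
    let eq : Y ⧸ center Y ≃* (Y.map K.subtype) ⧸ center (Y.map K.subtype) :=
      QuotientGroup.congr (center Y) (center (Y.map K.subtype)) e hmap
    refine ⟨Y.map K.subtype, ⟨?_, ?_, ?_, ?_, ?_, ?_⟩, Subgroup.map_subtype_le Y, le_normalizer_map hYn, ?_⟩
    · intro h
      apply hK
      rw [eq_top_iff, ← h]
      exact Subgroup.map_subtype_le Y
    · have h9 : (commutator Y).map e.toMonoidHom = commutator (Y.map K.subtype) := by
        rw [commutator_def, commutator_def, Subgroup.map_commutator,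
          Subgroup.map_top_of_surjective _ e.surjective]
      rw [← h9, h3, Subgroup.map_top_of_surjective _ e.surjective]
    · exact eq.symm.isSimpleGroup
    · intro h
      apply h5
      refine ⟨⟨fun a b => eq.injective ?_⟩⟩
      rw [map_mul, map_mul]
      exact h.is_comm.comm _ _
    · rw [← Nat.card_congr e.toEquiv]; exact h6
    · rw [← Nat.card_congr ec.toEquiv]; exact h7
    · intro x hx hxo
      refine ⟨⟨x, hx⟩, ?_, rfl⟩
      rw [h8]
      exact subset_closure (by show orderOf (⟨x, hx⟩ : K) = p; rw [Subgroup.orderOf_mk, hxo])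

/-- a normal subgroup of order `p` contains all elements of order `p` -/
theorem mem_of_normal {p : ℕ} (hp : p.Prime) (h2 : ¬ p ^ 2 ∣ Nat.card G) {X K : Subgroup G} (hXK : X ≤ K)
    (hn : K ≤ normalizer (X : Set G)) (hX : Nat.card X = p) {x : G} (hxK : x ∈ K) (hx : orderOf x = p) : x ∈ X := by
  have hD : (X.subgroupOf K).Normal := by
    constructor
    intro n hn' g
    rw [mem_subgroupOf] at hn' ⊢
    exact (mem_normalizer_iff.1 (hn g.2) _).1 hn'
  have hDc : Nat.card (X.subgroupOf K) = p := by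
    rw [Nat.card_congr (Subgroup.subgroupOfEquivOfLe hXK).toEquiv, hX]
  have hi : ¬ p ∣ (X.subgroupOf K).index := by
    intro h
    apply h2
    refine dvd_trans ?_ (Subgroup.card_subgroup_dvd_card K)
    rw [← Subgroup.card_mul_index (X.subgroupOf K), hDc, pow_two]
    exact Nat.mul_dvd_mul_left p h
  have h3 := mem_of_not_dvd_index hp hi (x := (⟨x, hxK⟩ : K)) (by rw [Subgroup.orderOf_mk, hx])
  rwa [mem_subgroupOf] at h3

/-- a `Qs` group has no normal subgroup of order `p` -/
theorem Qs.no_normal {p : ℕ} (hp : p.Prime) (h2 : ¬ p ^ 2 ∣ Nat.card G) {Y : Subgroup G} (h : Qs p Y)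
    {X : Subgroup G} (hXY : X ≤ Y) (hn : Y ≤ normalizer (X : Set G)) (hX : Nat.card X = p) : False := by
  have hfp : Fact p.Prime := ⟨hp⟩
  have h3 : Y ≤ X := h.le_of hp le_rfl hn (fun x hxY hxo => mem_of_normal hp h2 hXY hn hX hxY hxo)
  have h4 : X = Y := le_antisymm hXY h3
  have h5 : IsCyclic Y := isCyclic_of_prime_card (p := p) (by rw [← h4, hX])
  apply h.nab
  refine ⟨⟨?_⟩⟩
  rintro ⟨a⟩ ⟨b⟩
  have h6 : a * b = b * a := by
    letI := IsCyclic.commGroup (α := Y)
    exact mul_comm a b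
  exact congrArg (QuotientGroup.mk (s := center Y)) h6

/-- a `Qs` subgroup of maximal order: its proper overgroups normalise it -/
theorem Qs.uniq {p : ℕ} (hp : p.Prime) (h2 : ¬ p ^ 2 ∣ Nat.card G) {Y : Subgroup G} (h : Qs p Y)
    (hmax : ∀ Y' : Subgroup G, Qs p Y' → Y ≤ Y' → Y' = Y) (K : Subgroup G) (hYK : Y ≤ K) (hK : K ≠ ⊤)
    (hc : ∀ R : Subgroup K, R.Normal → ¬ p ∣ Nat.card R →
      ∀ x : K, orderOf x = p → ∀ y ∈ R, x * y = y * x) :
    K ≤ normalizer (Y : Set G) := by
  have hfp : Fact p.Prime := ⟨hp⟩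
  have hpK : p ∣ Nat.card K := h.dvd.trans (Subgroup.card_dvd_of_le hYK)
  rcases overgroup hp h2 hK hpK hc with ⟨X, hXK, hKX, hXc⟩ | ⟨Y', hY', hY'K, hKY', hall⟩
  · exfalso
    obtain ⟨x, hxo⟩ := exists_prime_orderOf_dvd_card' p h.dvd
    have hxo' : orderOf (x : G) = p := by rw [Subgroup.orderOf_coe, hxo]
    have h3 : (x : G) ∈ X := mem_of_normal hp h2 hXK hKX hXc (hYK x.2) hxo'
    have h4 : zpowers (x : G) = X := by
      apply Subgroup.eq_of_le_of_card_ge (zpowers_le.2 h3)
      rw [Nat.card_zpowers, hxo', hXc]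
    have h5 : X ≤ Y := by rw [← h4]; exact zpowers_le.2 x.2
    exact h.no_normal hp h2 h5 (hYK.trans hKX) hXc
  · have h3 : Y ≤ Y' := h.le_of hp hYK hKY' (fun x hx hxo => hall x (hYK hx) hxo)
    rw [← hmax Y' hY' h3]
    exact hKY'

theorem Qs.ne_bot {p : ℕ} (hp : p.Prime) {Y : Subgroup G} (h : Qs p Y) : Y ≠ ⊥ := by
  rintro rfl
  have := h.dvd
  rw [Subgroup.card_bot] at this
  exact hp.one_lt.ne' (Nat.dvd_one.1 this)

theorem card_lt_of_ne_top {Y : Subgroup G} (h : Y ≠ ⊤) : Nat.card Y < Nat.card G := by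
  refine lt_of_le_of_ne (Nat.le_of_dvd Nat.card_pos (Subgroup.card_subgroup_dvd_card Y)) fun h1 => h ?_
  exact Subgroup.card_eq_iff_eq_top Y |>.1 h1

/-- `CL G` from a `Qs` subgroup all of whose proper overgroups normalise it -/
theorem Qs.cl [IsSimpleGroup G] (hb : Below (Nat.card G)) {p : ℕ} (hp : p.Prime) {Y : Subgroup G} (h : Qs p Y)
    (hu : ∀ K : Subgroup G, Y ≤ K → K ≠ ⊤ → K ≤ normalizer (Y : Set G))
    (hZ : Nat.card (center Y) = 1 ∨ (Nat.card (center Y)).Prime) : CL G := by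
  have hs := h.simple
  have hM := normalizer_ne_top (h.ne_bot hp) h.ne
  have hlt := card_lt_of_ne_top h.ne
  have hq : Nat.card (Y ⧸ center Y) < Nat.card G :=
    lt_of_le_of_lt (Nat.le_of_dvd Nat.card_pos (Subgroup.card_quotient_dvd_card _)) hlt
  have hCq : CL (Y ⧸ center Y) := hb.apply hq
  rcases hZ with hZ | hZ
  · have h1 : center Y = ⊥ := by
      rw [← Subgroup.card_eq_one]; exact hZ
    have e : Y ⧸ center Y ≃* Y := (QuotientGroup.quotientMulEquivOfEq h1).trans QuotientGroup.quotientBot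
    exact crit_unique (of_equiv e hCq) hM hu
  · have hinj := Y.subtype_injective
    refine crit_prime (T := (center Y).map Y.subtype) (X := Y) (M := normalizer (Y : Set G))
      (Subgroup.map_subtype_le _) ?_ hM ?_ ?_ hu
    · refine int_of_surj (Subgroup.map_subtype_le _) (QuotientGroup.mk' (center Y))
        (QuotientGroup.mk'_surjective _) ?_ hCq
      rw [QuotientGroup.ker_mk']
      ext z
      rw [mem_subgroupOf]
      constructor
      · intro hz; exact ⟨z, hz, rfl⟩
      · rintro ⟨w, hw, hwz⟩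
        have : w = z := Subtype.ext hwz
        rwa [← this]
    · have h1 : Nat.card ((center Y).map Y.subtype) = Nat.card (center Y) :=
        (Nat.card_congr (Subgroup.equivMapOfInjective (center Y) _ hinj).toEquiv).symm
      rw [h1]; exact hZ
    · rintro m hm _ ⟨t, ht, rfl⟩
      have h1 : m * (t : G) * m⁻¹ ∈ Y := (mem_normalizer_iff.1 hm _).1 t.2
      refine ⟨⟨_, h1⟩, ?_, rfl⟩
      rw [SetLike.mem_coe, mem_center_iff]
      intro g
      apply Subtype.ext
      show (g : G) * (m * t * m⁻¹) = m * t * m⁻¹ * g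
      have h2 : m⁻¹ * (g : G) * m ∈ Y := by
        have h3 := (mem_normalizer_iff.1 ((normalizer (Y : Set G)).inv_mem hm) (g : G)).1 g.2
        rwa [inv_inv] at h3
      have h3 := congrArg Subtype.val (mem_center_iff.1 ht ⟨_, h2⟩)
      have h4 : m⁻¹ * (g : G) * m * t = t * (m⁻¹ * g * m) := h3
      calc (g : G) * (m * t * m⁻¹) = m * (m⁻¹ * g * m * t) * m⁻¹ := by group
        _ = m * (t * (m⁻¹ * g * m)) * m⁻¹ := by rw [h4]
        _ = m * t * m⁻¹ * g := by group

/-- **`CL G` from a good prime.** -/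
theorem cl_of_good [IsSimpleGroup G] (hna : ¬ IsMulCommutative G) (hb : Below (Nat.card G)) {p : ℕ} (hp : p.Prime)
    (h1 : p ∣ Nat.card G) (h2 : ¬ p ^ 2 ∣ Nat.card G) (hN : NoAct p (Nat.card G))
    (hZ : ∀ Y : Subgroup G, Qs p Y → Nat.card (center Y) = 1 ∨ (Nat.card (center Y)).Prime) : CL G := by
  have hfp : Fact p.Prime := ⟨hp⟩
  have hc : ∀ K : Subgroup G, K ≠ ⊤ → p ∣ Nat.card K → ∀ R : Subgroup K, R.Normal → ¬ p ∣ Nat.card R →
      ∀ x : K, orderOf x = p → ∀ y ∈ R, x * y = y * x := fun K _ _ => hyp_of_noAct hp hN K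
  by_cases hex : ∃ Y : Subgroup G, Qs p Y
  · obtain ⟨Y₀, hY₀⟩ := hex
    have : Nonempty {Y : Subgroup G // Qs p Y} := ⟨⟨Y₀, hY₀⟩⟩
    obtain ⟨⟨Y, hY⟩, hmax⟩ := Finite.exists_max (fun Y : {Y : Subgroup G // Qs p Y} => Nat.card Y.1)
    refine hY.cl hb hp (fun K hYK hK => hY.uniq hp h2 (fun Y' hY' hle => ?_) K hYK hK
      (hyp_of_noAct hp hN K)) (hZ Y hY)
    exact (Subgroup.eq_of_le_of_card_ge hle (hmax ⟨Y', hY'⟩)).symm
  · obtain ⟨x, hxo⟩ := exists_prime_orderOf_dvd_card' (G := G) p h1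
    have hXc : Nat.card (zpowers x) = p := by rw [Nat.card_zpowers, hxo]
    have h0 : zpowers x ≠ ⊥ := by
      intro h
      rw [h, Subgroup.card_bot] at hXc
      exact hp.one_lt.ne hXc
    have ht : zpowers x ≠ ⊤ := by
      intro h
      apply hna
      refine ⟨⟨fun a b => ?_⟩⟩
      have ha : a ∈ zpowers x := h ▸ mem_top a
      have hb' : b ∈ zpowers x := h ▸ mem_top b
      obtain ⟨i, rfl⟩ := mem_zpowers_iff.1 ha
      obtain ⟨j, rfl⟩ := mem_zpowers_iff.1 hb'
      rw [← zpow_add, ← zpow_add, add_comm]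
    refine crit_unique (X := zpowers x) (M := normalizer (zpowers x : Set G)) (of_prime (hXc ▸ hp))
      (normalizer_ne_top h0 ht) fun K hXK hK => ?_
    have hpK : p ∣ Nat.card K := hXc ▸ Subgroup.card_dvd_of_le hXK
    rcases overgroup hp h2 hK hpK (hc K hK hpK) with ⟨X, hX, hKX, hX'⟩ | ⟨Y', hY', -⟩
    · have h3 : x ∈ X := mem_of_normal hp h2 hX hKX hX' (hXK (mem_zpowers x)) hxo
      have h4 : zpowers x = X := by
        apply Subgroup.eq_of_le_of_card_ge (zpowers_le.2 h3)
        rw [hXc, hX']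
      rw [h4]; exact hKX
    · exact absurd ⟨Y', hY'⟩ hex

/-- **`CL G` from a good prime `p` with self-centralizing elements of order `p`.** -/
theorem cl_of_cent [IsSimpleGroup G] (hna : ¬ IsMulCommutative G) (hb : Below (Nat.card G)) {p : ℕ} (hp : p.Prime)
    (h1 : p ∣ Nat.card G) (h2 : ¬ p ^ 2 ∣ Nat.card G) (hN : NoAct p (Nat.card G))
    (hC : ∀ x : G, orderOf x = p → centralizer {x} ≤ zpowers x) : CL G := by
  have hfp : Fact p.Prime := ⟨hp⟩
  refine cl_of_good hna hb hp h1 h2 hN fun Y hY => Or.inl ?_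
  rw [Subgroup.card_eq_one, eq_bot_iff]
  intro z hz
  obtain ⟨x, hxo⟩ := exists_prime_orderOf_dvd_card' p hY.dvd
  have hxo' : orderOf (x : G) = p := by rw [Subgroup.orderOf_coe, hxo]
  have h3 : (z : G) ∈ centralizer {(x : G)} := by
    rw [mem_centralizer_singleton_iff]
    exact (congrArg Subtype.val (mem_center_iff.1 hz x)).symm
  have h4 : orderOf (z : G) ∣ Nat.card (zpowers (x : G)) := Subgroup.orderOf_dvd_natCard _ (hC _ hxo' h3)
  rw [Nat.card_zpowers, hxo'] at h4
  rw [Subgroup.orderOf_coe] at h4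
  rcases (Nat.dvd_prime hp).1 h4 with h5 | h5
  · rw [mem_bot]; exact orderOf_eq_one_iff.1 h5
  · exfalso
    apply hY.ndvd
    have h6 := orderOf_dvd_natCard (⟨z, hz⟩ : center Y)
    rwa [Subgroup.orderOf_mk, h5] at h6

/-! ### the criterion with a given simple subgroup -/

/-- if an element of order `p` centralises the normal subgroup `R` then all of them do (`p` divides `|K|` once) -/
theorem all_of_one {K : Type u} [Group K] [Finite K] {p : ℕ} (hp : p.Prime) (h2 : ¬ p ^ 2 ∣ Nat.card K)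
    {R : Subgroup K} (hR : R.Normal) {a : K} (ha : orderOf a = p) (hc : ∀ y ∈ R, a * y = y * a) {x : K}
    (hx : orderOf x = p) : ∀ y ∈ R, x * y = y * x := by
  have hfp : Fact p.Prime := ⟨hp⟩
  have hP : IsPGroup p (zpowers a) := IsPGroup.of_card (n := 1) (by rw [Nat.card_zpowers, ha, pow_one])
  have hidx : ¬ p ∣ (zpowers a).index := by
    intro h
    apply h2
    rw [← Subgroup.card_mul_index (zpowers a), Nat.card_zpowers, ha, pow_two]
    exact Nat.mul_dvd_mul_left p h
  let P : Sylow p K := hP.toSylow hidx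
  have hPx : (P : Subgroup K) = zpowers a := rfl
  have hX : IsPGroup p (zpowers x) := IsPGroup.of_card (n := 1) (by rw [Nat.card_zpowers, hx, pow_one])
  obtain ⟨Q, hQ⟩ := hX.exists_le_sylow
  obtain ⟨g, hg⟩ := MulAction.exists_smul_eq K P Q
  have h3 : x ∈ (Q : Subgroup K) := hQ (mem_zpowers x)
  rw [← hg] at h3
  obtain ⟨b, hb, hbx⟩ : ∃ b ∈ zpowers a, g * b * g⁻¹ = x := by
    rw [Sylow.coe_subgroup_smul, hPx, Subgroup.mem_pointwise_smul_iff_inv_smul_mem] at h3
    refine ⟨_, h3, ?_⟩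
    rw [MulAut.smul_def, MulAut.conj_inv_apply]; group
  obtain ⟨i, rfl⟩ := mem_zpowers_iff.1 hb
  have h4 : x = g * a ^ i * g⁻¹ := hbx.symm
  intro y hy
  have h5 : g⁻¹ * y * g ∈ R := by
    have := hR.conj_mem y hy g⁻¹
    rwa [inv_inv] at this
  have h6 : a ^ i * (g⁻¹ * y * g) = (g⁻¹ * y * g) * a ^ i := (show Commute a _ from hc _ h5).zpow_left i
  calc x * y = g * (a ^ i * (g⁻¹ * y * g)) * g⁻¹ := by rw [h4]; group
    _ = g * ((g⁻¹ * y * g) * a ^ i) * g⁻¹ := by rw [h6]
    _ = y * x := by rw [h4]; group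

/-- a simple non-abelian subgroup is `Qs` -/
theorem qs_of_simple {p : ℕ} (hp : p.Prime) {X : Subgroup G} (hX : X ≠ ⊤) (hs : IsSimpleGroup X)
    (hna : ¬ IsMulCommutative X) (h1 : p ∣ Nat.card X) : Qs p X ∧ center X = ⊥ := by
  have hc : center X = ⊥ := by
    rcases hs.eq_bot_or_eq_top_of_normal (center X) inferInstance with h | h
    · exact h
    · exact absurd ⟨⟨fun a b => (Subgroup.mem_center_iff.1 (h ▸ Subgroup.mem_top b) a)⟩⟩ hna
  have e : X ⧸ center X ≃* X := (QuotientGroup.quotientMulEquivOfEq hc).trans QuotientGroup.quotientBot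
  refine ⟨⟨hX, ?_, e.isSimpleGroup, ?_, h1, ?_⟩, hc⟩
  · rcases hs.eq_bot_or_eq_top_of_normal (commutator X) inferInstance with h | h
    · exfalso
      apply hna
      refine ⟨⟨fun a b => ?_⟩⟩
      have h3 : ⁅a, b⁆ ∈ commutator X := commutator_mem_commutator (mem_top a) (mem_top b)
      rw [h, mem_bot, commutatorElement_eq_one_iff_mul_comm] at h3
      exact h3
    · exact h
  · intro h
    apply hna
    refine ⟨⟨fun a b => e.symm.injective ?_⟩⟩
    rw [map_mul, map_mul]
    exact h.is_comm.comm _ _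
  · rw [hc, Subgroup.card_bot]
    exact fun h => hp.one_lt.ne' (Nat.dvd_one.1 h)

/-- a `Qs` overgroup of a simple group with a simple quotient of the same order is equal to it -/
theorem eq_of_card {p : ℕ} (hp : p.Prime) {X Y : Subgroup G} (hs : IsSimpleGroup X)
    (hna : ¬ IsMulCommutative X) (hXY : X ≤ Y) (hY : Qs p Y) (hcard : Nat.card (Y ⧸ center Y) = Nat.card X) :
    Y = X := by
  refine le_antisymm ?_ hXY
  -- `X ∩ Z(Y) = 1`
  have hXZ : ∀ z : Y, z ∈ center Y → (z : G) ∈ X → z = 1 := by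
    intro z hz hzX
    have h3 : (⟨z, hzX⟩ : X) ∈ center X := by
      rw [mem_center_iff]
      intro w
      apply Subtype.ext
      exact congrArg (fun w : Y => (w : G)) (mem_center_iff.1 hz ⟨w, hXY w.2⟩)
    have h4 : center X = ⊥ := by
      rcases hs.eq_bot_or_eq_top_of_normal (center X) inferInstance with h | h
      · exact h
      · exact absurd ⟨⟨fun a b => (Subgroup.mem_center_iff.1 (h ▸ Subgroup.mem_top b) a)⟩⟩ hna
    rw [h4, mem_bot] at h3
    exact Subtype.ext (show (z : G) = 1 from congrArg (fun w : X => (w : G)) h3)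
  let f : X →* Y ⧸ center Y := (QuotientGroup.mk' (center Y)).comp (inclusion hXY)
  have hinj : Function.Injective f := by
    rw [← MonoidHom.ker_eq_bot_iff, eq_bot_iff]
    intro x hx
    have h3 : inclusion hXY x ∈ center Y := (QuotientGroup.eq_one_iff _).1 hx
    have h4 := hXZ _ h3 x.2
    rw [mem_bot]
    exact Subtype.ext (congrArg (fun w : Y => (w : G)) h4)
  have hsurj : Function.Surjective f :=
    ((Nat.bijective_iff_injective_and_card f).2 ⟨hinj, hcard.symm⟩).2
  have hdec : ∀ y : Y, ∃ x : X, ∃ z ∈ center Y, y = inclusion hXY x * z := by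
    intro y
    obtain ⟨x, hx⟩ := hsurj (QuotientGroup.mk' (center Y) y)
    refine ⟨x, (inclusion hXY x)⁻¹ * y, ?_, by group⟩
    have h3 : QuotientGroup.mk' (center Y) (inclusion hXY x) = QuotientGroup.mk' (center Y) y := hx
    exact QuotientGroup.eq.1 h3
  refine hY.le_of hp le_rfl ?_ ?_
  · -- `Y` normalises `X`
    have h3 : ∀ y ∈ Y, ∀ x ∈ X, y * x * y⁻¹ ∈ X := by
      intro y hy x hx
      obtain ⟨a, z, hz, h4⟩ := hdec ⟨y, hy⟩
      have h5 : y = (a : G) * (z : G) := congrArg Subtype.val h4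
      have h6 : (x : G) * z = z * x := congrArg Subtype.val (mem_center_iff.1 hz ⟨x, hXY hx⟩)
      have h7 : y * x * y⁻¹ = a * x * (a : G)⁻¹ := by
        calc y * x * y⁻¹ = a * (z * x) * (z : G)⁻¹ * (a : G)⁻¹ := by rw [h5]; group
          _ = a * (x * z) * (z : G)⁻¹ * (a : G)⁻¹ := by rw [h6]
          _ = a * x * (a : G)⁻¹ := by group
      rw [h7]
      exact mul_mem (mul_mem a.2 hx) (inv_mem a.2)
    intro y hy
    rw [mem_normalizer_iff]
    intro x
    constructor
    · exact h3 y hy x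
    · intro hx
      have h4 := h3 y⁻¹ (inv_mem hy) _ hx
      have h5 : y⁻¹ * (y * x * y⁻¹) * y⁻¹⁻¹ = x := by group
      rwa [h5] at h4
  · intro y hy hyo
    obtain ⟨a, z, hz, h4⟩ := hdec ⟨y, hy⟩
    have h5 : (inclusion hXY a) * z = z * inclusion hXY a := mem_center_iff.1 hz _
    have h6 : (⟨y, hy⟩ : Y) ^ p = 1 := by
      apply Subtype.ext
      show y ^ p = 1
      rw [← hyo, pow_orderOf_eq_one]
    rw [h4, (show Commute _ z from h5).mul_pow] at h6
    have h7 : z ^ p = 1 := by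
      apply hXZ _ (pow_mem hz p)
      have h8 : z ^ p = (inclusion hXY a ^ p)⁻¹ := (inv_eq_of_mul_eq_one_right h6).symm
      rw [h8]
      show (((a : G) ^ p)⁻¹) ∈ X
      exact inv_mem (pow_mem a.2 p)
    have h8 : orderOf z ∣ p := orderOf_dvd_of_pow_eq_one h7
    have h9 : z = 1 := by
      rcases (Nat.dvd_prime hp).1 h8 with h9 | h9
      · exact orderOf_eq_one_iff.1 h9
      · exfalso
        apply hY.ndvd
        have h10 := orderOf_dvd_natCard (⟨z, hz⟩ : center Y)
        rwa [Subgroup.orderOf_mk, h9] at h10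
    have h10 : y = a := by
      have h11 := congrArg Subtype.val h4
      rw [h9, mul_one] at h11
      exact h11
    rw [h10]; exact a.2

/-- **`CL G` from a simple subgroup `X`** centralising every `p'`-subgroup it normalises. -/
theorem cl_of_simple' [IsSimpleGroup G] (hb : Below (Nat.card G)) {X : Subgroup G} (hX : X ≠ ⊤)
    (hs : IsSimpleGroup X) (hna : ¬ IsMulCommutative X) {p : ℕ} (hp : p.Prime) (h1 : p ∣ Nat.card X)
    (h2 : ¬ p ^ 2 ∣ Nat.card G)
    (hact : ∀ K : Subgroup G, X ≤ K → K ≠ ⊤ → ∀ R : Subgroup K, R.Normal → ¬ p ∣ Nat.card R →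
      ∀ a : K, (a : G) ∈ X → ∀ y ∈ R, a * y = y * a)
    (hL : ∀ Y : Subgroup G, Qs p Y → X ≤ Y → Nat.card (Y ⧸ center Y) = Nat.card X) : CL G := by
  have hfp : Fact p.Prime := ⟨hp⟩
  obtain ⟨hQ, hc⟩ := qs_of_simple hp hX hs hna h1
  refine hQ.cl hb hp (fun K hXK hK => hQ.uniq hp h2 (fun Y hY hXY => ?_) K hXK hK ?_)
    (Or.inl (by rw [hc, Subgroup.card_bot]))
  · exact eq_of_card hp hs hna hXY hY (hL Y hY hXY)
  · intro R hR hpR x hx y hy
    obtain ⟨a, ha⟩ := exists_prime_orderOf_dvd_card' p h1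
    have h3 := hact K hXK hK R hR hpR ⟨a, hXK a.2⟩ a.2
    exact all_of_one hp (fun h => h2 (h.trans (Subgroup.card_subgroup_dvd_card K))) hR
      (a := ⟨a, hXK a.2⟩) (by rw [Subgroup.orderOf_mk, Subgroup.orderOf_coe, ha]) h3 hx y hy

/-- **`CL G` from a large simple subgroup `X`.** -/
theorem cl_of_simple [IsSimpleGroup G] (hb : Below (Nat.card G)) {X : Subgroup G} (hX : X ≠ ⊤)
    (hs : IsSimpleGroup X) (hna : ¬ IsMulCommutative X) {p : ℕ} (hp : p.Prime) (h1 : p ∣ Nat.card X)
    (h2 : ¬ p ^ 2 ∣ Nat.card G) {s : ℕ} (hsp : s.Prime) (hs1 : s ∣ Nat.card X) (hs2 : ¬ s ∣ X.index)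
    (hN : NoAct s X.index)
    (hL : ∀ Y : Subgroup G, Qs p Y → X ≤ Y → Nat.card (Y ⧸ center Y) = Nat.card X) : CL G := by
  have hfs : Fact s.Prime := ⟨hsp⟩
  refine cl_of_simple' hb hX hs hna hp h1 h2 (fun K hXK hK R hR hpR a haX y hy => ?_) hL
  -- `R ∩ X = 1`
  have hRX : ∀ r : K, r ∈ R → (r : G) ∈ X → r = 1 := by
    have h3 : (((R.map K.subtype) : Subgroup G).subgroupOf X).Normal := by
      constructor
      intro n hn g
      rw [mem_subgroupOf] at hn ⊢
      obtain ⟨r, hr, hrn⟩ := hn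
      have hrn' : (r : G) = n := hrn
      refine ⟨⟨g, hXK g.2⟩ * r * ⟨g, hXK g.2⟩⁻¹, hR.conj_mem r hr _, ?_⟩
      show (g : G) * r * (g : G)⁻¹ = _
      rw [hrn']; rfl
    rcases hs.eq_bot_or_eq_top_of_normal _ h3 with h4 | h4
    · intro r hr hrX
      have h5 : (⟨r, hrX⟩ : X) ∈ ((R.map K.subtype : Subgroup G).subgroupOf X) := by
        rw [mem_subgroupOf]; exact ⟨r, hr, rfl⟩
      rw [h4, mem_bot] at h5
      exact Subtype.ext (show (r : G) = 1 from congrArg (fun w : X => (w : G)) h5)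
    · exfalso
      rw [subgroupOf_eq_top] at h4
      apply hpR
      have h5 : Nat.card (R.map K.subtype : Subgroup G) = Nat.card R :=
        (Nat.card_congr (Subgroup.equivMapOfInjective R _ K.subtype_injective).toEquiv).symm
      rw [← h5]
      exact h1.trans (Subgroup.card_dvd_of_le h4)
  -- `|R|` divides the index of `X`
  have hRi : Nat.card R ∣ X.index := by
    have h3 : Nat.card R * Nat.card X ∣ Nat.card G := by
      let XK := X.subgroupOf K
      have h4 : Nat.card XK = Nat.card X := Nat.card_congr (Subgroup.subgroupOfEquivOfLe hXK).toEquiv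
      have h5 : Disjoint R XK := by
        rw [Subgroup.disjoint_def]
        intro r hr hrX
        exact hRX r hr (mem_subgroupOf.1 hrX)
      have h6 : Nat.card (R ⊔ XK : Subgroup K) = Nat.card R * Nat.card XK := by
        have h7 := Subgroup.relIndex_mul_relIndex ⊥ R (XK ⊔ R) bot_le le_sup_right
        rw [Subgroup.relIndex_bot_left, Subgroup.relIndex_bot_left, Subgroup.relIndex_sup_right,
          ← Subgroup.inf_relIndex_right, disjoint_iff.1 h5, Subgroup.relIndex_bot_left] at h7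
        rw [sup_comm]
        exact h7.symm
      rw [← h4, ← h6]
      exact (Subgroup.card_subgroup_dvd_card _).trans (Subgroup.card_subgroup_dvd_card K)
    rw [← Subgroup.card_mul_index X, mul_comm] at h3
    exact Nat.dvd_of_mul_dvd_mul_left Nat.card_pos h3
  -- an element of order `s` centralises `R`
  obtain ⟨b, hbo⟩ := exists_prime_orderOf_dvd_card' s hs1
  have hbR : ∀ y ∈ R, (⟨b, hXK b.2⟩ : K) * y = y * ⟨b, hXK b.2⟩ := by
    intro y hy
    have h3 := centralizes hsp (R := R) (x := ⟨b, hXK b.2⟩)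
      (by rw [Subgroup.orderOf_mk, Subgroup.orderOf_coe, hbo]) (fun h => hs2 (h.trans hRi))
      (fun r j hr hj hd => hN r j hr hj (hd.trans hRi))
    exact (mem_centralizer_singleton_iff.1 (h3 hy)).symm
  -- so does `X`
  let C : Subgroup X := ((centralizer (R : Set K)).map K.subtype).subgroupOf X
  have hCn : C.Normal := by
    constructor
    intro n hn g
    rw [mem_subgroupOf] at hn ⊢
    obtain ⟨r, hr, hrn⟩ := hn
    have hrn' : (r : G) = n := hrn
    have hcn : (centralizer (R : Set K)).Normal := inferInstance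
    refine ⟨⟨g, hXK g.2⟩ * r * ⟨g, hXK g.2⟩⁻¹, hcn.conj_mem r hr _, ?_⟩
    show (g : G) * r * (g : G)⁻¹ = _
    rw [hrn']; rfl
  have hbC : b ∈ C := by
    rw [mem_subgroupOf]
    refine ⟨⟨b, hXK b.2⟩, ?_, rfl⟩
    rw [SetLike.mem_coe, mem_centralizer_iff]
    intro y hy
    exact (hbR y hy).symm
  rcases hs.eq_bot_or_eq_top_of_normal C hCn with h3 | h3
  · exfalso
    rw [h3, mem_bot] at hbC
    rw [hbC, orderOf_one] at hbo
    exact hsp.one_lt.ne hbo
  · have h4 : (⟨a, haX⟩ : X) ∈ C := h3 ▸ mem_top _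
    rw [mem_subgroupOf] at h4
    obtain ⟨c, hc, hca⟩ := h4
    have h5 : c = a := Subtype.ext hca
    rw [h5] at hc
    exact ((mem_centralizer_iff.1 hc) y hy).symm

end general

end Cfsg.Agent.H808.GoodCL
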